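import Mathlib
import Cfsg.Agent.Lib.Helper11.AltP.Basic

set_option autoImplicit false

/-! Ladder ALTP, rungs PA and PB. -/

namespace Cfsg.Agent.Lib.Helper11.AltP

open Equiv Cfsg.Agent.Lib.Helper98

variable {Ω : Type*} [Fintype Ω] [DecidableEq Ω]

/-- RUNG PA. -/
theorem fibre_sub {a b : ℕ} (ha : 2 ≤ a) (hb : 2 ≤ b) (hab : 3 ≤ a ∨ 3 ≤ b) (f : Ω → Fin b)
    (hf : ∀ i : Fin b, Nat.card {x : Ω // f x = i} = a) (B : Set Ω)
    (hB : ∀ h ∈ partStab f ⊓ alternatingGroup Ω, (∃ z ∈ B, h z ∈ B) → ∀ z ∈ B, h z ∈ B)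
    {x y : Ω} (hx : x ∈ B) (hy : y ∈ B) (hxy : x ≠ y) : ∀ z, f z = f x → z ∈ B := by
  intro z hz
  by_cases hzx : z = x
  · rw [hzx]; exact hx
  by_cases hfy : f y = f x
  · by_cases hzy : z = y
    · rw [hzy]; exact hy
    obtain ⟨j, hj⟩ := exists_index_ne hb (f x)
    obtain ⟨w, w', hww, hw, hw'⟩ := exists_pair ha f hf j
    have hmem := swap_mul_swap_mem (f := f) (x := y) (x' := z) (y := w) (y' := w')
      (fun e => hzy e.symm) (hfy.trans hz.symm) hww (hw.trans hw'.symm)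
    have hwx : w ≠ x := fun e => hj (by rw [← hw, e])
    have hwx' : w' ≠ x := fun e => hj (by rw [← hw', e])
    have hwy : w ≠ y := fun e => hj (by rw [← hw, e, hfy])
    have hwy' : w' ≠ y := fun e => hj (by rw [← hw', e, hfy])
    have e1 : (swap y z * swap w w') x = x := by
      rw [Perm.mul_apply, swap_apply_of_ne_of_ne hwx.symm hwx'.symm,
        swap_apply_of_ne_of_ne hxy (fun e => hzx e.symm)]
    have e2 : (swap y z * swap w w') y = z := by
      rw [Perm.mul_apply, swap_apply_of_ne_of_ne hwy.symm hwy'.symm, swap_apply_left]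
    have := hB _ hmem ⟨x, hx, by rw [e1]; exact hx⟩ y hy
    rwa [e2] at this
  · -- `f y ≠ f x`
    obtain ⟨w, w', hww, hfw, hwx, hwx', hwy, hwy'⟩ : ∃ w w' : Ω, w ≠ w' ∧ f w = f w' ∧
        f w ≠ f x ∧ f w' ≠ f x ∧ w ≠ y ∧ w' ≠ y := by
      rcases hab with h3 | h3
      · obtain ⟨w, w', h1, h2, h3', h4, h5⟩ := exists_pair_ne h3 f hf y
        exact ⟨w, w', h1, h4.trans h5.symm, by rw [h4]; exact hfy, by rw [h5]; exact hfy, h2, h3'⟩
      · obtain ⟨j, hj1, hj2⟩ := exists_index_ne₂ h3 (f x) (f y)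
        obtain ⟨w, w', hww, hw, hw'⟩ := exists_pair ha f hf j
        exact ⟨w, w', hww, hw.trans hw'.symm, by rw [hw]; exact hj1, by rw [hw']; exact hj1,
          fun e => hj2 (by rw [← hw, e]), fun e => hj2 (by rw [← hw', e])⟩
    have hmem := swap_mul_swap_mem (f := f) (x := x) (x' := z) (y := w) (y' := w')
      (fun e => hzx e.symm) hz.symm hww hfw
    have e1 : (swap x z * swap w w') y = y := by
      rw [Perm.mul_apply, swap_apply_of_ne_of_ne hwy.symm hwy'.symm,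
        swap_apply_of_ne_of_ne hxy.symm (fun e => hfy (by rw [e, hz]))]
    have hxw : x ≠ w := fun e => hwx (by rw [e])
    have hxw' : x ≠ w' := fun e => hwx' (by rw [e])
    have e2 : (swap x z * swap w w') x = z := by
      rw [Perm.mul_apply, swap_apply_of_ne_of_ne hxw hxw', swap_apply_left]
    have := hB _ hmem ⟨y, hy, by rw [e1]; exact hy⟩ x hx
    rwa [e2] at this

/-- RUNG PB. -/
theorem univ_of_two {a b : ℕ} (ha : 2 ≤ a) (f : Ω → Fin b)
    (hf : ∀ i : Fin b, Nat.card {x : Ω // f x = i} = a) (B : Set Ω)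
    (hB : ∀ h ∈ partStab f ⊓ alternatingGroup Ω, (∃ z ∈ B, h z ∈ B) → ∀ z ∈ B, h z ∈ B)
    (hfib : ∀ x ∈ B, ∀ z, f z = f x → z ∈ B)
    {x y : Ω} (hx : x ∈ B) (hy : y ∈ B) (hxy : f x ≠ f y) : B = Set.univ := by
  rw [Set.eq_univ_iff_forall]
  intro z
  by_cases hzx : f z = f x
  · exact hfib x hx z hzx
  by_cases hzy : f z = f y
  · exact hfib y hy z hzy
  obtain ⟨x', hx'x, hfx'⟩ := exists_other ha f hf x
  -- an even element inducing `swap (f y) (f z)` on the fibres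
  obtain ⟨g, hg, hgf⟩ : ∃ g ∈ partStab f ⊓ alternatingGroup Ω,
      ∀ t, f (g t) = swap (f y) (f z) (f t) := by
    rcases parity_fix (blockPerm_mem f hf (swap (f y) (f z))) hx'x.symm hfx'.symm with h | h
    · exact ⟨_, h, f_blockPerm f hf _⟩
    · refine ⟨_, h, fun t => ?_⟩
      rw [Perm.mul_apply, f_blockPerm f hf]
      congr 1
      rw [swap_apply_def]
      split_ifs with h1 h2
      · rw [h1, hfx']
      · rw [h2, hfx']
      · rfl
  have h1 : g x ∈ B := by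
    apply hfib x hx
    rw [hgf, swap_apply_of_ne_of_ne hxy (fun e => hzx e.symm)]
  have h2 := hB g hg ⟨x, hx, h1⟩ y hy
  apply hfib _ h2
  rw [hgf, swap_apply_left]

end Cfsg.Agent.Lib.Helper11.AltP
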