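import Mathlib
import Cfsg.Agent.Lib.Helper11.AltP.Small
import Cfsg.Agent.Lib.Helper98.AltPPA

set_option autoImplicit false

/-! Ladder ALTP, rung PC. -/

namespace Cfsg.Agent.Lib.Helper11.AltP

open Equiv Cfsg.Agent.Lib.Helper98
open scoped Pointwise

variable {Ω : Type*} [Fintype Ω] [DecidableEq Ω]

/-- RUNG PC. -/
theorem prim {a b : ℕ} (ha : 2 ≤ a) (hb : 2 ≤ b) (hab : 3 ≤ a ∨ 3 ≤ b) (f : Ω → Fin b)
    (hf : ∀ i : Fin b, Nat.card {x : Ω // f x = i} = a) (L : Subgroup (Perm Ω))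
    (hHL : partStab f ⊓ alternatingGroup Ω ≤ L) (hL : ¬ L ≤ partStab f) :
    MulAction.IsPreprimitive L Ω := by
  have htrans : MulAction.IsPretransitive L Ω := ⟨fun x y => by
    obtain ⟨h, hh, hxy⟩ := trans_H ha hb f hf x y
    exact ⟨⟨h, hHL hh⟩, hxy⟩⟩
  refine { toIsPretransitive := htrans, isTrivialBlock_of_isBlock := ?_ }
  intro B hB
  by_contra hcon
  unfold MulAction.IsTrivialBlock at hcon
  push Not at hcon
  obtain ⟨hns0, hnu⟩ := hcon
  have hns : ¬ B.Subsingleton := Set.not_subsingleton_iff.mpr hns0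
  have key : ∀ B' : Set Ω, MulAction.IsBlock L B' → ¬ B'.Subsingleton → B' ≠ Set.univ →
      ∀ x ∈ B', ∀ z, z ∈ B' ↔ f z = f x := by
    intro B' hB' hns' hnu' x hx z
    have hel : ∀ h ∈ partStab f ⊓ alternatingGroup Ω, (∃ z ∈ B', h z ∈ B') →
        ∀ z ∈ B', h z ∈ B' := by
      rintro h hh ⟨z0, hz0, hz0'⟩ z1 hz1
      have h1 := hB'.smul_eq_of_mem (g := (⟨h, hHL hh⟩ : L)) hz0 hz0'
      rw [← h1]
      exact Set.smul_mem_smul_set (a := (⟨h, hHL hh⟩ : L)) hz1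
    have hfib : ∀ x ∈ B', ∀ z, f z = f x → z ∈ B' := by
      intro x hx
      obtain ⟨y, hy, hyx⟩ : ∃ y ∈ B', x ≠ y := by
        by_contra hc
        push Not at hc
        apply hns'
        intro u hu v hv
        rw [← hc u hu, ← hc v hv]
      exact fibre_sub ha hb hab f hf B' hel hx hy hyx
    constructor
    · intro hz
      by_contra hne
      exact hnu' (univ_of_two ha f hf B' hel hfib hx hz (fun e => hne e.symm))
    · exact hfib x hx z
  have htr : ∀ (k : L) (B' : Set Ω), MulAction.IsBlock L B' → ¬ B'.Subsingleton → B' ≠ Set.univ →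
      MulAction.IsBlock L (k • B') ∧ ¬ (k • B').Subsingleton ∧ k • B' ≠ Set.univ := by
    intro k B' h1 h2 h3
    refine ⟨h1.translate k, ?_, ?_⟩
    · intro hs
      apply h2
      intro u hu v hv
      exact smul_left_cancel k (hs (Set.smul_mem_smul_set hu) (Set.smul_mem_smul_set hv))
    · intro hu
      apply h3
      rw [Set.eq_univ_iff_forall]
      intro z
      have : k • z ∈ k • B' := by rw [hu]; exact Set.mem_univ _
      exact (Set.smul_mem_smul_set_iff).mp this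
  have hpres : ∀ g ∈ L, ∀ u v, f u = f v → f (g u) = f (g v) := by
    intro g hg u v huv
    obtain ⟨x0, hx0⟩ : B.Nonempty := by
      by_contra hc
      rw [Set.not_nonempty_iff_eq_empty] at hc
      exact hns (hc ▸ Set.subsingleton_empty)
    obtain ⟨h, hh, hhu⟩ := trans_H ha hb f hf x0 u
    obtain ⟨b1, b2, b3⟩ := htr ⟨h, hHL hh⟩ B hB hns hnu
    have hu1 : u ∈ (⟨h, hHL hh⟩ : L) • B := by
      rw [← hhu]
      exact Set.smul_mem_smul_set (a := (⟨h, hHL hh⟩ : L)) hx0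
    have hv1 : v ∈ (⟨h, hHL hh⟩ : L) • B := (key _ b1 b2 b3 u hu1 v).mpr huv.symm
    obtain ⟨c1, c2, c3⟩ := htr ⟨g, hg⟩ _ b1 b2 b3
    have hu2 : g u ∈ (⟨g, hg⟩ : L) • ((⟨h, hHL hh⟩ : L) • B) :=
      Set.smul_mem_smul_set (a := (⟨g, hg⟩ : L)) hu1
    have hv2 : g v ∈ (⟨g, hg⟩ : L) • ((⟨h, hHL hh⟩ : L) • B) :=
      Set.smul_mem_smul_set (a := (⟨g, hg⟩ : L)) hv1
    exact ((key _ c1 c2 c3 (g u) hu2 (g v)).mp hv2).symm
  apply hL
  intro g hg
  rw [mem_partStab]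
  intro x y
  refine ⟨hpres g hg x y, fun h => ?_⟩
  have := hpres g⁻¹ (L.inv_mem hg) _ _ h
  simpa using this

end Cfsg.Agent.Lib.Helper11.AltP
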