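import Cfsg.Agent.Lib.Helper20.RCDefs

set_option autoImplicit false

/-! Ladder RC (helper20, S4937), rung NSZ (helper98). -/

namespace Cfsg.Agent.Lib.Helper98.RC

open Cfsg Cfsg.Agent.Lib.Helper81 Cfsg.Agent.Lib.Helper20.RC

theorem nconj_refl {G : Type*} [Group G] (N : Subgroup G) (g : G) : NConj N g g :=
  ⟨1, N.one_mem, by simp⟩

theorem nconj_symm {G : Type*} [Group G] {N : Subgroup G} {g z : G} (h : NConj N g z) :
    NConj N z g := by
  obtain ⟨n, hn, rfl⟩ := h
  exact ⟨n⁻¹, N.inv_mem hn, by group⟩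

theorem nconj_trans {G : Type*} [Group G] {N : Subgroup G} {g z w : G} (h : NConj N g z)
    (h' : NConj N z w) : NConj N g w := by
  obtain ⟨n, hn, rfl⟩ := h
  obtain ⟨m, hm, rfl⟩ := h'
  exact ⟨m * n, N.mul_mem hm hn, by group⟩

theorem nconj_iff_of_nconj {G : Type*} [Group G] {N : Subgroup G} {g g' : G} (h : NConj N g g')
    (z : G) : NConj N g' z ↔ NConj N g z :=
  ⟨fun h' => nconj_trans h h', fun h' => nconj_trans (nconj_symm h) h'⟩

theorem nsz_eq_of_nconj {G : Type*} [Group G] {N : Subgroup G} {g g' : G} (h : NConj N g g') :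
    nsz N g' = nsz N g := by
  unfold nsz
  exact Nat.card_congr (Equiv.subtypeEquivRight (nconj_iff_of_nconj h))

theorem nsz_pos {G : Type*} [Group G] [Finite G] (N : Subgroup G) (g : G) : 0 < nsz N g := by
  unfold nsz
  haveI : Nonempty {z : G // NConj N g z} := ⟨⟨g, nconj_refl N g⟩⟩
  exact Nat.card_pos

theorem nsz_conj {G : Type*} [Group G] [Finite G] (N : Subgroup G) (g : G) {n : G} (hn : n ∈ N) :
    nsz N (n * g * n⁻¹) = nsz N g :=
  nsz_eq_of_nconj ⟨n, hn, rfl⟩

/-- orbit-stabiliser: the size of the `N`-class is the index of the centraliser in `N`. -/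
theorem nsz_eq_index {G : Type*} [Group G] (N : Subgroup G) (g : G) :
    nsz N g = ((Subgroup.centralizer ({g} : Set G)).subgroupOf N).index := by
  letI : MulAction N G := MulAction.compHom G ((MulAut.conj : G →* MulAut G).comp N.subtype)
  have hsm : ∀ (n : N) (x : G), n • x = (n : G) * x * (n : G)⁻¹ := fun _ _ => rfl
  have h1 := MulAction.index_stabilizer N g
  have h2 : MulAction.stabilizer N g = (Subgroup.centralizer ({g} : Set G)).subgroupOf N := by
    ext n
    rw [MulAction.mem_stabilizer_iff, hsm, Subgroup.mem_subgroupOf,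
      Subgroup.mem_centralizer_singleton_iff, mul_inv_eq_iff_eq_mul]
  rw [← h2, h1]
  unfold nsz
  rw [← Nat.card_coe_set_eq]
  apply Nat.card_congr
  apply Equiv.subtypeEquivRight
  intro z
  constructor
  · rintro ⟨n, hn, rfl⟩
    exact ⟨⟨n, hn⟩, rfl⟩
  · rintro ⟨n, rfl⟩
    exact ⟨n, n.2, rfl⟩

theorem not_dvd_nsz {G : Type*} [Group G] [Finite G] (p : ℕ) [Fact p.Prime] (N : Subgroup G)
    (P : Sylow p ↥N) (c : G)
    (hc : c ∈ Subgroup.centralizer (((P : Subgroup ↥N).map N.subtype : Subgroup G) : Set G)) :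
    ¬ p ∣ nsz N c := by
  rw [nsz_eq_index]
  have hle : (P : Subgroup ↥N) ≤ (Subgroup.centralizer ({c} : Set G)).subgroupOf N := by
    intro x hx
    rw [Subgroup.mem_subgroupOf, Subgroup.mem_centralizer_singleton_iff]
    rw [Subgroup.mem_centralizer_iff] at hc
    exact hc (x : G) ⟨x, hx, rfl⟩
  intro hdvd
  exact P.not_dvd_index (dvd_trans hdvd (Subgroup.index_dvd_of_le hle))

end Cfsg.Agent.Lib.Helper98.RC
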