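import Cfsg.Agent.Lib.Helper98.RCNSZ

set_option autoImplicit false

/-! Ladder RC (helper20, S4937), rung B0N (helper98). -/

namespace Cfsg.Agent.Lib.Helper98.RC

open Cfsg Cfsg.Agent.Lib.Helper81 Cfsg.Agent.Lib.Helper20.RC

variable {p : ℕ} {M : Ideal AlgInt}

theorem index_centralizer_eq_nsz {G : Type*} [Group G] (N : Subgroup G) (z : N) :
    (Subgroup.centralizer ({z} : Set N)).index = nsz N (z : G) := by
  rw [nsz_eq_index]
  congr 1
  ext n
  rw [Subgroup.mem_subgroupOf, Subgroup.mem_centralizer_singleton_iff,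
    Subgroup.mem_centralizer_singleton_iff, Subtype.ext_iff]
  rfl

theorem centralChar_res {G : Type*} [Group G] (N : Subgroup G) (χ : G → ℂ) (z : N) :
    centralChar (fun n : N => χ n) z = omN N χ (z : G) := by
  unfold centralChar omN
  rw [index_centralizer_eq_nsz]
  rfl

theorem centralChar_one_res {G : Type*} [Group G] (N : Subgroup G) (z : N) :
    centralChar (fun _ : N => (1 : ℂ)) z = (nsz N (z : G) : ℂ) := by
  unfold centralChar
  rw [index_centralizer_eq_nsz, mul_one, div_one]

theorem omN_sub_nsz_of_mem {G : Type*} [Group G] [Finite G] (N : Subgroup G) (χ : G → ℂ)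
    (h : SameBlock M (fun _ : N => (1 : ℂ)) (fun n : N => χ n)) (z : G) (hz : z ∈ N) :
    MemLocalIdeal M (omN N χ z - nsz N z) := by
  have h1 := h ⟨z, hz⟩
  rw [centralChar_res, centralChar_one_res] at h1
  have h2 := memLocalIdeal_neg h1
  rwa [neg_sub] at h2

end Cfsg.Agent.Lib.Helper98.RC
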