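import Cfsg.Agent.Lib.Helper98.RCNSZ

set_option autoImplicit false

/-! Ladder RC (helper20, S4937), rung CNT (helper98). -/

namespace Cfsg.Agent.Lib.Helper98.RC

open Cfsg Cfsg.Agent.Lib.Helper81 Cfsg.Agent.Lib.Helper20.RC

theorem nconj_conj_right {G : Type*} [Group G] {N : Subgroup G} {g z n : G} (hn : n ∈ N)
    (h : NConj N g z) : NConj N g (n * z * n⁻¹) :=
  nconj_trans h ⟨n, hn, rfl⟩

theorem cnt_conj {G : Type*} [Group G] [Finite G] (N : Subgroup G) (x y z : G) {n : G} (hn : n ∈ N) :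
    cnt N x y (n * z * n⁻¹) = cnt N x y z := by
  unfold cnt
  apply Nat.card_congr
  refine
    { toFun := fun ab => ⟨(n⁻¹ * ab.1.1 * n, n⁻¹ * ab.1.2 * n), ?_, ?_, ?_⟩
      invFun := fun ab => ⟨(n * ab.1.1 * n⁻¹, n * ab.1.2 * n⁻¹), ?_, ?_, ?_⟩
      left_inv := ?_
      right_inv := ?_ }
  · have := nconj_conj_right (N.inv_mem hn) ab.2.1
    simpa using this
  · have := nconj_conj_right (N.inv_mem hn) ab.2.2.1
    simpa using this
  · have := ab.2.2.2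
    show n⁻¹ * ab.1.1 * n * (n⁻¹ * ab.1.2 * n) = z
    have e : n⁻¹ * ab.1.1 * n * (n⁻¹ * ab.1.2 * n) = n⁻¹ * (ab.1.1 * ab.1.2) * n := by group
    rw [e, this]
    group
  · exact nconj_conj_right hn ab.2.1
  · exact nconj_conj_right hn ab.2.2.1
  · have := ab.2.2.2
    show n * ab.1.1 * n⁻¹ * (n * ab.1.2 * n⁻¹) = n * z * n⁻¹
    have e : n * ab.1.1 * n⁻¹ * (n * ab.1.2 * n⁻¹) = n * (ab.1.1 * ab.1.2) * n⁻¹ := by group
    rw [e, this]
  · rintro ⟨⟨a, b⟩, h⟩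
    apply Subtype.ext
    apply Prod.ext
    · show n * (n⁻¹ * a * n) * n⁻¹ = a
      group
    · show n * (n⁻¹ * b * n) * n⁻¹ = b
      group
  · rintro ⟨⟨a, b⟩, h⟩
    apply Subtype.ext
    apply Prod.ext
    · show n⁻¹ * (n * a * n⁻¹) * n = a
      group
    · show n⁻¹ * (n * b * n⁻¹) * n = b
      group

theorem sum_cnt {G : Type*} [Group G] [Fintype G] (N : Subgroup G) (x y : G) :
    ∑ z : G, cnt N x y z = nsz N x * nsz N y := by
  unfold cnt nsz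
  rw [← Nat.card_prod, ← Nat.card_sigma]
  apply Nat.card_congr
  exact
    { toFun := fun s => (⟨s.2.1.1, s.2.2.1⟩, ⟨s.2.1.2, s.2.2.2.1⟩)
      invFun := fun ab => ⟨ab.1.1 * ab.2.1, ⟨(ab.1.1, ab.2.1), ab.1.2, ab.2.2, rfl⟩⟩
      left_inv := by
        rintro ⟨z, ⟨⟨a, b⟩, h1, h2, h3⟩⟩
        dsimp only at h3
        subst h3
        rfl
      right_inv := by
        rintro ⟨⟨a, ha⟩, ⟨b, hb⟩⟩
        rfl }

theorem mem_of_cnt_ne_zero {G : Type*} [Group G] [Finite G] (N : Subgroup G) [N.Normal] (x y z : G)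
    (h : cnt N x y z ≠ 0) : (x * y)⁻¹ * z ∈ N := by
  unfold cnt at h
  have hne : Nonempty {ab : G × G // NConj N x ab.1 ∧ NConj N y ab.2 ∧ ab.1 * ab.2 = z} := by
    by_contra hc
    rw [not_nonempty_iff] at hc
    exact h Nat.card_of_isEmpty
  obtain ⟨⟨⟨a, b⟩, ⟨n, hn, ha⟩, ⟨m, hm, hb⟩, hab⟩⟩ := hne
  dsimp only at ha hb hab
  subst ha hb hab
  have hN : ∀ (k g : G), k ∈ N → g⁻¹ * k * g ∈ N := by
    intro k g hk
    have := (inferInstance : N.Normal).conj_mem k hk g⁻¹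
    simpa using this
  have e : (x * y)⁻¹ * (n * x * n⁻¹ * (m * y * m⁻¹))
      = y⁻¹ * ((x⁻¹ * n * x) * n⁻¹ * m) * y * m⁻¹ := by group
  rw [e]
  exact N.mul_mem (hN _ _ (N.mul_mem (N.mul_mem (hN _ _ hn) (N.inv_mem hn)) hm)) (N.inv_mem hm)

end Cfsg.Agent.Lib.Helper98.RC
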