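import Cfsg.Agent.Lib.Helper98.RCNSZ

set_option autoImplicit false

/-! Ladder RC (helper20, S4937), rung ORB (helper98). -/

namespace Cfsg.Agent.Lib.Helper98.RC

open Cfsg Cfsg.Agent.Lib.Helper81 Cfsg.Agent.Lib.Helper20.RC

variable {p : ℕ} {M : Ideal AlgInt}

/-- the setoid of `N`-conjugacy. -/
def nconjSetoid {G : Type*} [Group G] (N : Subgroup G) : Setoid G where
  r := NConj N
  iseqv := ⟨nconj_refl N, nconj_symm, nconj_trans⟩

theorem orb_sum {G : Type*} [Group G] [Fintype G] (hM : IsPModular p M) (N : Subgroup G)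
    (c : G → ℕ) (f : G → ℂ)
    (hc : ∀ n ∈ N, ∀ z, c (n * z * n⁻¹) = c z) (hf : ∀ n ∈ N, ∀ z, f (n * z * n⁻¹) = f z)
    (h : ∀ z, c z ≠ 0 → MemLocalIdeal M ((nsz N z : ℂ) * f z)) :
    MemLocalIdeal M (∑ z : G, (c z : ℂ) * f z) := by
  classical
  rw [Finset.sum_partition (nconjSetoid N)]
  apply memLocalIdeal_sum hM
  intro xbar _
  induction xbar using Quotient.inductionOn with
  | h z =>
    have h1 : ∀ y ∈ Finset.univ.filter (fun y : G => (Quotient.mk (nconjSetoid N) y) =
        Quotient.mk (nconjSetoid N) z), (c y : ℂ) * f y = (c z : ℂ) * f z := by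
      intro y hy
      rw [Finset.mem_filter] at hy
      obtain ⟨n, hn, rfl⟩ : NConj N y z := Quotient.exact hy.2
      rw [hc n hn, hf n hn]
    rw [Finset.sum_congr rfl h1, Finset.sum_const, nsmul_eq_mul]
    have h2 : (Finset.univ.filter (fun y : G => (Quotient.mk (nconjSetoid N) y) =
        Quotient.mk (nconjSetoid N) z)).card = nsz N z := by
      unfold nsz
      rw [Nat.card_eq_fintype_card, Fintype.card_subtype]
      congr 1
      ext y
      simp only [Finset.mem_filter, Finset.mem_univ, true_and]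
      constructor
      · intro hy
        exact nconj_symm (Quotient.exact hy)
      · intro hy
        exact Quotient.sound (nconj_symm hy)
    rw [h2]
    by_cases hcz : c z = 0
    · rw [hcz]
      simpa using memLocalIdeal_zero hM
    · have e : (nsz N z : ℂ) * ((c z : ℂ) * f z) = (c z : ℂ) * ((nsz N z : ℂ) * f z) := by ring
      rw [e]
      exact memLocalIdeal_mul_left hM (memLocalRing_natCast hM _) (h z hcz)

end Cfsg.Agent.Lib.Helper98.RC
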