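import Cfsg.Agent.Lib.Helper98.RCB0N
import Cfsg.Agent.Lib.Helper98.RCORB

set_option autoImplicit false

/-! Ladder RC (helper20, S4937), rung FIN (helper98). -/

namespace Cfsg.Agent.Lib.Helper98.RC

open Cfsg Cfsg.Agent.Lib.Helper81 Cfsg.Agent.Lib.Helper20.RC

variable {p : ℕ} {M : Ideal AlgInt}

theorem sameBlock_of_omN {G : Type*} [Group G] [Finite G] (hM : IsPModular p M) (N J : Subgroup G)
    (hNJ : N ≤ J) (χ : G → ℂ) (hcl : ∀ g z : G, χ (g * z * g⁻¹) = χ z)
    (h : ∀ z : G, MemLocalIdeal M (omN N χ z - nsz N z)) :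
    SameBlock M (fun _ : J => (1 : ℂ)) (fun j : J => χ j) := by
  classical
  cases nonempty_fintype G
  intro y
  rw [centralChar_res, centralChar_one_res]
  have h1 := orb_sum hM N (fun z => if NConj J (y : G) z then 1 else 0)
    (fun z => χ z / χ 1 - 1) ?_ ?_ ?_
  · have h2 : ∑ z : G, (((if NConj J (y : G) z then 1 else 0 : ℕ) : ℂ)) * (χ z / χ 1 - 1)
        = (nsz J (y : G) : ℂ) * (χ (y : G) / χ 1 - 1) := by
      have h3 : ∀ z : G, (((if NConj J (y : G) z then 1 else 0 : ℕ) : ℂ)) * (χ z / χ 1 - 1)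
          = if NConj J (y : G) z then (χ (y : G) / χ 1 - 1) else 0 := by
        intro z
        by_cases hz : NConj J (y : G) z
        · rw [if_pos hz, if_pos hz, Nat.cast_one, one_mul]
          obtain ⟨n, -, rfl⟩ := hz
          rw [hcl]
        · rw [if_neg hz, if_neg hz, Nat.cast_zero, zero_mul]
      rw [Finset.sum_congr rfl (fun z _ => h3 z), ← Finset.sum_filter, Finset.sum_const,
        nsmul_eq_mul]
      congr 2
      unfold nsz
      rw [Nat.card_eq_fintype_card, Fintype.card_subtype]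
    rw [h2] at h1
    have h4 := memLocalIdeal_neg h1
    have e : -((nsz J (y : G) : ℂ) * (χ (y : G) / χ 1 - 1))
        = (nsz J (y : G) : ℂ) - omN J χ (y : G) := by
      unfold omN
      ring
    rwa [e] at h4
  · intro n hn z
    have hiff : NConj J (y : G) (n * z * n⁻¹) ↔ NConj J (y : G) z := by
      constructor
      · intro h'
        exact nconj_trans h' (nconj_symm ⟨n, hNJ hn, rfl⟩)
      · intro h'
        exact nconj_trans h' ⟨n, hNJ hn, rfl⟩
    simp only [hiff]
  · intro n _ z
    simp only [hcl]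
  · intro z _
    have e : (nsz N z : ℂ) * (χ z / χ 1 - 1) = omN N χ z - nsz N z := by
      unfold omN
      ring
    rw [e]
    exact h z

end Cfsg.Agent.Lib.Helper98.RC
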