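import Cfsg.Agent.Lib.Helper98.RCB0N
import Cfsg.Agent.Lib.Helper81.Osima
import Cfsg.Agent.Lib.Helper77.GallRel

set_option autoImplicit false

/-! Ladder RC (helper20, S4937), rung INT (helper98). -/

namespace Cfsg.Agent.Lib.Helper98.RC

open Cfsg Cfsg.Agent.Lib.Helper81 Cfsg.Agent.Lib.Helper20.RC

theorem nsz_sup_zpowers {G : Type*} [Group G] (N : Subgroup G) [N.Normal] (g : G) :
    nsz (N ⊔ Subgroup.zpowers g) g = nsz N g := by
  unfold nsz
  apply Nat.card_congr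
  apply Equiv.subtypeEquivRight
  intro z
  constructor
  · rintro ⟨h, hh, rfl⟩
    obtain ⟨n, hn, k, hk, rfl⟩ := Subgroup.mem_sup_of_normal_left.mp hh
    obtain ⟨i, rfl⟩ := Subgroup.mem_zpowers_iff.mp hk
    refine ⟨n, hn, ?_⟩
    have e : n * g ^ i * g * (n * g ^ i)⁻¹ = n * (g ^ i * g * (g ^ i)⁻¹) * n⁻¹ := by group
    rw [e]
    have e2 : g ^ i * g * (g ^ i)⁻¹ = g := by
      rw [mul_inv_eq_iff_eq_mul]
      exact ((Commute.refl g).zpow_left i).eq
    rw [e2]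
  · rintro ⟨n, hn, rfl⟩
    exact ⟨n, (le_sup_left : N ≤ N ⊔ Subgroup.zpowers g) hn, rfl⟩

theorem omN_isIntegral {G : Type*} [Group G] [Finite G] (N : Subgroup G) [N.Normal] (χ : G → ℂ)
    (hχ : IsIrrCharacter G χ) (hres : IsIrrCharacter N (fun n : N => χ n)) (g : G) :
    IsIntegral ℤ (omN N χ g) := by
  cases nonempty_fintype G
  set H : Subgroup G := N ⊔ Subgroup.zpowers g with hH
  have hgH : g ∈ H := (le_sup_right : Subgroup.zpowers g ≤ H) (Subgroup.mem_zpowers g)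
  have hchar : IsCharacter H (χ ∘ H.subtype) :=
    Cfsg.Agent.Lib.Helper20.isCharacter_comp_hom
      (Cfsg.Agent.Lib.Helper20.isCharacter_of_isIrrCharacter hχ) H.subtype
  have hirr : IsIrrCharacter H (χ ∘ H.subtype) :=
    Cfsg.Agent.Lib.Helper77.isIrr_of_comp_irr
      (Subgroup.inclusion (le_sup_left : N ≤ H)) hchar hres
  cases nonempty_fintype H
  have h1 := centralChar_isIntegral (⟨χ ∘ H.subtype, hirr⟩ : IrrCharacter H) ⟨g, hgH⟩
  have h2 : centralChar (χ ∘ H.subtype) ⟨g, hgH⟩ = omN H χ g := centralChar_res H χ ⟨g, hgH⟩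
  have h3 : omN H χ g = omN N χ g := by
    unfold omN
    rw [hH, nsz_sup_zpowers]
  rw [← h3, ← h2]
  exact h1

end Cfsg.Agent.Lib.Helper98.RC
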