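import Mathlib

set_option autoImplicit false

namespace Cfsg.Agent.Lib.Helper98

open Equiv Equiv.Perm

section arithmetic

theorem two_pow_mul_factorial_lt (k : ℕ) (hk : 4 ≤ k) :
    2 ^ (k - 1) * k.factorial < (2 * k - 2).factorial := by
  induction k, hk using Nat.le_induction with
  | base => decide
  | succ k hk ih =>
    have e1 : k + 1 - 1 = (k - 1) + 1 := by omega
    have e2 : 2 * (k + 1) - 2 = (2 * k - 2) + 1 + 1 := by omega
    rw [e1, e2, pow_succ, Nat.factorial_succ k, Nat.factorial_succ, Nat.factorial_succ]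
    have h1 : 2 * (k + 1) ≤ (2 * k - 2 + 1 + 1) * (2 * k - 2 + 1) := by
      have : 2 * k - 2 + 1 + 1 = 2 * k := by omega
      have h3 : 2 * k - 2 + 1 = 2 * k - 1 := by omega
      rw [this, h3]
      have : 2 ≤ 2 * k - 1 := by omega
      nlinarith
    calc 2 ^ (k - 1) * 2 * ((k + 1) * k.factorial)
        = (2 * (k + 1)) * (2 ^ (k - 1) * k.factorial) := by ring
      _ < (2 * (k + 1)) * (2 * k - 2).factorial := by
          apply Nat.mul_lt_mul_of_pos_left ih (by omega)
      _ ≤ ((2 * k - 2 + 1 + 1) * (2 * k - 2 + 1)) * (2 * k - 2).factorial :=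
          Nat.mul_le_mul_right _ h1
      _ = (2 * k - 2 + 1 + 1) * ((2 * k - 2 + 1) * (2 * k - 2).factorial) := by ring

theorem centralizer_arith (n k : ℕ) (hk : 1 ≤ k) (hkn : 2 * k ≤ n)
    (h : (n - 2 * k).factorial * 2 ^ k * k.factorial = (n - 2).factorial * 2) :
    k = 1 ∨ (n = 6 ∧ k = 3) := by
  obtain ⟨m, rfl⟩ : ∃ m, n = m + 2 * k := ⟨n - 2 * k, by omega⟩
  rw [Nat.add_sub_cancel] at h
  have hm : 0 < m.factorial := Nat.factorial_pos m
  rcases (by omega : k = 1 ∨ k = 2 ∨ k = 3 ∨ 4 ≤ k) with rfl | rfl | rfl | hk4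
  · exact Or.inl rfl
  · exfalso
    have e : m + 2 * 2 - 2 = m + 1 + 1 := by omega
    rw [e, Nat.factorial_succ, Nat.factorial_succ] at h
    have h2 : (m + 1 + 1) * (m + 1) = 4 := by
      have : m.factorial * ((m + 1 + 1) * (m + 1)) = m.factorial * 4 := by
        simp only [Nat.factorial] at h
        nlinarith
      exact Nat.eq_of_mul_eq_mul_left hm this
    rcases m with _ | m
    · omega
    · nlinarith
  · right
    have e : m + 2 * 3 - 2 = m + 1 + 1 + 1 + 1 := by omega
    rw [e, Nat.factorial_succ, Nat.factorial_succ, Nat.factorial_succ, Nat.factorial_succ] at h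
    have h2 : (m + 1 + 1 + 1 + 1) * ((m + 1 + 1 + 1) * ((m + 1 + 1) * (m + 1))) = 24 := by
      have : m.factorial * ((m + 1 + 1 + 1 + 1) * ((m + 1 + 1 + 1) * ((m + 1 + 1) * (m + 1)))) =
          m.factorial * 24 := by
        simp only [Nat.factorial] at h
        nlinarith
      exact Nat.eq_of_mul_eq_mul_left hm this
    rcases m with _ | m
    · exact ⟨rfl, rfl⟩
    · exfalso
      have : 5 * (4 * (3 * 2)) ≤
          (m + 1 + 1 + 1 + 1 + 1) * ((m + 1 + 1 + 1 + 1) * ((m + 1 + 1 + 1) * (m + 1 + 1))) := by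
        apply Nat.mul_le_mul (by omega)
        apply Nat.mul_le_mul (by omega)
        apply Nat.mul_le_mul (by omega) (by omega)
      omega
  · exfalso
    have h1 := two_pow_mul_factorial_lt k hk4
    have h2 : m.factorial * (2 * k - 2).factorial ≤ (m + (2 * k - 2)).factorial :=
      Nat.le_of_dvd (Nat.factorial_pos _) (Nat.factorial_mul_factorial_dvd_factorial_add _ _)
    have e : m + 2 * k - 2 = m + (2 * k - 2) := by omega
    have e2 : 2 ^ k = 2 ^ (k - 1) * 2 := by
      rw [← pow_succ]; congr 1; omega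
    rw [e, e2] at h
    have h3 : m.factorial * (2 ^ (k - 1) * k.factorial) < m.factorial * (2 * k - 2).factorial :=
      Nat.mul_lt_mul_of_pos_left h1 hm
    nlinarith

end arithmetic

section perm

variable {α β : Type*} [Fintype α] [DecidableEq α] [Fintype β] [DecidableEq β]

omit [DecidableEq α] in
theorem exists_ne_ne (h3 : 3 ≤ Fintype.card α) (x y : α) : ∃ w : α, w ≠ x ∧ w ≠ y := by
  classical
  by_contra hcon
  push Not at hcon
  have : (Finset.univ : Finset α) ⊆ {x, y} := by
    intro w _
    by_cases hw : w = x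
    · simp [hw]
    · simp [hcon w hw]
  have h1 := Finset.card_le_card this
  have h2 : ({x, y} : Finset α).card ≤ 2 := Finset.card_le_two
  rw [Finset.card_univ] at h1
  omega

theorem eq_one_of_forall_commute (h3 : 3 ≤ Fintype.card α) (z : Perm α)
    (hz : ∀ g : Perm α, g * z = z * g) : z = 1 := by
  by_contra hne
  obtain ⟨x, hx⟩ : ∃ x, z x ≠ x := by
    by_contra hcon
    push Not at hcon
    exact hne (Equiv.ext hcon)
  obtain ⟨w, hw1, hw2⟩ := exists_ne_ne h3 x (z x)
  have := congrArg (fun p : Perm α => p x) (hz (swap (z x) w))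
  simp only [Perm.mul_apply, swap_apply_left] at this
  rw [swap_apply_of_ne_of_ne hx.symm hw1.symm] at this
  exact hw2 this

/-- a normal subgroup of `Perm α` not containing the alternating group is trivial -/
theorem normal_eq_bot_of_not_alternating_le (h5 : 5 ≤ Fintype.card α) (N : Subgroup (Perm α))
    [hN' : N.Normal] (hN : ¬ alternatingGroup α ≤ N) : N = ⊥ := by
  have hsimple : IsSimpleGroup (alternatingGroup α) :=
    alternatingGroup.isSimpleGroup (by rwa [Nat.card_eq_fintype_card])
  have hnorm : (N.subgroupOf (alternatingGroup α)).Normal := inferInstance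
  rcases hnorm.eq_bot_or_eq_top with hb | ht
  · have hdisj : Disjoint N (alternatingGroup α) := Subgroup.subgroupOf_eq_bot.mp hb
    rw [eq_bot_iff]
    intro z hz
    rw [Subgroup.mem_bot]
    apply eq_one_of_forall_commute (by omega)
    intro g
    have h1 : g * z * g⁻¹ * z⁻¹ ∈ N := N.mul_mem (hN'.conj_mem z hz g) (N.inv_mem hz)
    have h2 : g * z * g⁻¹ * z⁻¹ ∈ alternatingGroup α := by
      rw [mem_alternatingGroup, map_mul, map_mul, map_mul, map_inv, map_inv,
        mul_comm (sign g) (sign z), mul_inv_cancel_right, mul_inv_cancel]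
    have h3 : g * z * g⁻¹ * z⁻¹ ∈ N ⊓ alternatingGroup α := ⟨h1, h2⟩
    rw [hdisj.eq_bot, Subgroup.mem_bot] at h3
    have h4 := congrArg (fun p => p * z * g) h3
    simpa [mul_assoc] using h4
  · exact absurd (Subgroup.subgroupOf_eq_top.mp ht) hN

theorem cosetAction_bijective (h5 : 5 ≤ Fintype.card α) (H : Subgroup (Perm α))
    (hH : H.index = Fintype.card α) :
    Function.Bijective (MulAction.toPermHom (Perm α) (Perm α ⧸ H)) := by
  have hnt : Nontrivial α := Fintype.one_lt_card_iff_nontrivial.mp (by omega)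
  have hinj : Function.Injective (MulAction.toPermHom (Perm α) (Perm α ⧸ H)) := by
    rw [← MonoidHom.ker_eq_bot_iff, ← Subgroup.normalCore_eq_ker]
    apply normal_eq_bot_of_not_alternating_le h5
    intro hle
    have := Subgroup.index_dvd_of_le (hle.trans H.normalCore_le)
    rw [alternatingGroup.index_eq_two, hH] at this
    have := Nat.le_of_dvd (by norm_num) this
    omega
  apply hinj.bijective_of_nat_card_le
  rw [Nat.card_perm, Nat.card_perm, ← Subgroup.index_eq_card, hH, Nat.card_eq_fintype_card]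

theorem card_centralizer_map {G G' : Type*} [Group G] [Group G'] (e : G ≃* G') (g : G) :
    Nat.card (Subgroup.centralizer {e g}) = Nat.card (Subgroup.centralizer {g}) := by
  have : Subgroup.centralizer {e g} = (Subgroup.centralizer {g}).map e.toMonoidHom := by
    ext x
    simp only [Subgroup.mem_centralizer_singleton_iff, Subgroup.mem_map]
    constructor
    · intro hx
      refine ⟨e.symm x, ?_, by simp⟩
      apply e.injective
      simp [hx]
    · rintro ⟨y, hy, rfl⟩
      have := congrArg e hy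
      simpa using this
  rw [this]
  exact Nat.card_congr (e.subgroupMap _).symm.toEquiv

theorem toFinset_replicate_two {n : ℕ} (hn : n ≠ 0) :
    (Multiset.replicate n 2).toFinset = {2} := by
  ext x
  simp [hn, Multiset.mem_replicate]

theorem involution_type (g : Perm α) (hg : orderOf g = 2) :
    ∃ k, 1 ≤ k ∧ 2 * k ≤ Fintype.card α ∧ g.cycleType = Multiset.replicate k 2 ∧
      Nat.card (Subgroup.centralizer {g}) =
        (Fintype.card α - 2 * k).factorial * 2 ^ k * k.factorial := by
  obtain ⟨m, hm⟩ := cycleType_prime_order (σ := g) (by rw [hg]; exact Nat.prime_two)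
  rw [hg] at hm
  refine ⟨m + 1, by omega, ?_, hm, ?_⟩
  · have h1 := g.sum_cycleType
    rw [hm, Multiset.sum_replicate] at h1
    have h2 := Finset.card_le_univ g.support
    simp only [smul_eq_mul] at h1
    omega
  · rw [nat_card_centralizer, hm, Multiset.sum_replicate, Multiset.prod_replicate,
      toFinset_replicate_two (by omega), Finset.prod_singleton,
      Multiset.count_replicate_self, smul_eq_mul, mul_comm (m + 1) 2]

theorem isSwap_or_of_card_centralizer (g : Perm α) (hg : orderOf g = 2)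
    (hc : Nat.card (Subgroup.centralizer {g}) = (Fintype.card α - 2).factorial * 2) :
    g.IsSwap ∨ (Fintype.card α = 6 ∧ g.cycleType = Multiset.replicate 3 2) := by
  obtain ⟨k, hk1, hk2, hk3, hk4⟩ := involution_type g hg
  rcases centralizer_arith _ k hk1 hk2 (hk4.symm.trans hc) with rfl | ⟨h6, rfl⟩
  · left
    rw [isSwap_iff_cycleType, hk3]
    rfl
  · exact Or.inr ⟨h6, hk3⟩

theorem card_centralizer_swap (t : Perm α) (ht : t.IsSwap) :
    Nat.card (Subgroup.centralizer {t}) = (Fintype.card α - 2).factorial * 2 := by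
  rw [nat_card_centralizer, isSwap_iff_cycleType.mp ht]
  simp

theorem card_centralizer_triple (h6 : Fintype.card α = 6) (u : Perm α)
    (hu : u.cycleType = Multiset.replicate 3 2) :
    Nat.card (Subgroup.centralizer {u}) = (Fintype.card α - 2).factorial * 2 := by
  rw [nat_card_centralizer, hu, h6, Multiset.sum_replicate, Multiset.prod_replicate,
      toFinset_replicate_two (by omega), Finset.prod_singleton,
      Multiset.count_replicate_self]
  decide

theorem isSwap_conj {t : Perm α} (ht : t.IsSwap) (c : Perm α) : (c * t * c⁻¹).IsSwap := by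
  obtain ⟨x, y, hxy, rfl⟩ := ht
  exact ⟨c x, c y, c.injective.ne hxy, (swap_apply_apply c x y).symm⟩

theorem isSwap_isConj {s t : Perm α} (hs : s.IsSwap) (ht : t.IsSwap) :
    ∃ c : Perm α, c * s * c⁻¹ = t := by
  obtain ⟨x, y, hxy, rfl⟩ := hs
  obtain ⟨z, w, hzw, rfl⟩ := ht
  exact isConj_iff.mp (isConj_swap hxy hzw)

theorem map_swaps (e : Perm α ≃* Perm β) (t0 : Perm α) (ht0 : t0.IsSwap) (h0 : (e t0).IsSwap) :
    (∀ t : Perm α, t.IsSwap → (e t).IsSwap) ∧ (∀ s : Perm β, s.IsSwap → (e.symm s).IsSwap) := by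
  constructor
  · intro t ht
    obtain ⟨c, rfl⟩ := isSwap_isConj ht0 ht
    rw [map_mul, map_mul, map_inv]
    exact isSwap_conj h0 _
  · intro s hs
    obtain ⟨c, rfl⟩ := isSwap_isConj h0 hs
    rw [map_mul, map_mul, map_inv, MulEquiv.symm_apply_apply]
    exact isSwap_conj ht0 _

theorem stabilizer_eq_closure_swaps (x0 : α) :
    MulAction.stabilizer (Perm α) x0 = Subgroup.closure {s : Perm α | s.IsSwap ∧ s x0 = x0} := by
  apply le_antisymm
  · intro g hg
    have hg' : g x0 = x0 := hg
    have hmem : ∀ x, (g x ≠ x0) ↔ (x ≠ x0) := by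
      intro x
      rw [not_iff_not]
      constructor
      · intro h
        apply g.injective
        rw [h, hg']
      · intro h
        rw [h, hg']
    have hg2 : ofSubtype (g.subtypePerm (p := fun x => x ≠ x0) hmem) = g :=
      ofSubtype_subtypePerm (p := fun x => x ≠ x0) _ (fun x hx => by rintro rfl; exact hx hg')
    rw [← hg2]
    have htop : g.subtypePerm (p := fun x => x ≠ x0) hmem ∈ Subgroup.closure {σ : Perm {x // x ≠ x0} | σ.IsSwap} := by
      rw [closure_isSwap]; trivial
    have := Subgroup.mem_map_of_mem (ofSubtype : Perm {x // x ≠ x0} →* Perm α) htop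
    rw [MonoidHom.map_closure] at this
    refine Subgroup.closure_mono ?_ this
    rintro _ ⟨σ, ⟨x, y, hxy, rfl⟩, rfl⟩
    rw [ofSubtype_swap_eq]
    exact ⟨⟨x, y, Subtype.coe_injective.ne hxy, rfl⟩, swap_apply_of_ne_of_ne x.2.symm y.2.symm⟩
  · rw [Subgroup.closure_le]
    rintro s ⟨-, hs⟩
    exact hs

theorem le_choose (m : ℕ) : ∀ j : ℕ, 1 ≤ j → j + 1 ≤ m → m ≤ m.choose j := by
  induction m with
  | zero => intro j h1 h2; omega
  | succ m ih =>
    intro j h1 h2
    obtain ⟨j', rfl⟩ : ∃ j', j = j' + 1 := ⟨j - 1, by omega⟩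
    rw [Nat.choose_succ_succ']
    rcases Nat.eq_zero_or_pos j' with rfl | hj'
    · simp
    · have := ih j' hj' (by omega)
      have h3 : 0 < m.choose (j' + 1) := Nat.choose_pos (by omega)
      omega

theorem lt_choose (n k : ℕ) (h1 : 2 ≤ k) (h2 : k + 2 ≤ n) : n < n.choose k := by
  obtain ⟨n', rfl⟩ : ∃ n', n = n' + 1 := ⟨n - 1, by omega⟩
  obtain ⟨k', rfl⟩ : ∃ k', k = k' + 1 := ⟨k - 1, by omega⟩
  rw [Nat.choose_succ_succ']
  have a1 := le_choose n' k' (by omega) (by omega)
  have a2 := le_choose n' (k' + 1) (by omega) (by omega)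
  omega

open scoped Pointwise in
theorem index_stabilizer_set (s : Set α) :
    (MulAction.stabilizer (Perm α) s).index = (Fintype.card α).choose s.ncard := by
  classical
  let s' : Set.powersetCard α s.ncard := ⟨s.toFinset, by
    rw [Set.powersetCard.mem_iff, Set.ncard_eq_toFinset_card']⟩
  have hs' : ((s' : Set.powersetCard α s.ncard) : Set α) = s := by
    ext x
    change x ∈ s.toFinset ↔ _
    simp
  have := Set.powersetCard.isPretransitive (α := α) (n := s.ncard)
  rw [← hs', ← Set.powersetCard.stabilizer_coe, MulAction.index_stabilizer_of_transitive,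
    Set.powersetCard.card, Nat.card_eq_fintype_card, hs']

theorem eq_of_le_of_index_eq {G : Type*} [Group G] {H K : Subgroup G} (hle : H ≤ K)
    (hK : K.index ≠ 0) (h : H.index = K.index) : H = K := by
  apply le_antisymm hle
  have h1 := Subgroup.relIndex_mul_index hle
  rw [h] at h1
  have h2 : H.relIndex K = 1 := by
    have : H.relIndex K * K.index = 1 * K.index := by rw [h1, one_mul]
    exact Nat.eq_of_mul_eq_mul_right (Nat.pos_of_ne_zero hK) this
  exact Subgroup.relIndex_eq_one.mp h2

theorem eq_stabilizer_of_le (H : Subgroup (Perm α)) (hH : H.index = Fintype.card α) (x : α)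
    (hle : H ≤ MulAction.stabilizer (Perm α) x) : H = MulAction.stabilizer (Perm α) x := by
  have hidx : (MulAction.stabilizer (Perm α) x).index = Fintype.card α := by
    rw [MulAction.index_stabilizer_of_transitive, Nat.card_eq_fintype_card]
  have hpos : 0 < Fintype.card α := Fintype.card_pos_iff.mpr ⟨x⟩
  exact eq_of_le_of_index_eq hle (by omega) (by omega)

open scoped Pointwise in
theorem eq_stabilizer_of_closure_swaps (h5 : 5 ≤ Fintype.card α) (H : Subgroup (Perm α))
    (hH : H.index = Fintype.card α) (S : Set (Perm α)) (hS : ∀ σ ∈ S, σ.IsSwap)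
    (hHS : H = Subgroup.closure S) : ∃ x : α, H = MulAction.stabilizer (Perm α) x := by
  have hnt : ¬ MulAction.IsPretransitive H α := by
    intro htr
    subst hHS
    have := closure_of_isSwap_of_isPretransitive hS
    rw [this, Subgroup.index_top] at hH
    omega
  have : ∃ x y : α, y ∉ MulAction.orbit H x := by
    by_contra hcon
    push Not at hcon
    exact hnt ⟨fun x y => hcon x y⟩
  obtain ⟨x, y, hy⟩ := this
  set O : Set α := MulAction.orbit H x with hO
  have hxO : x ∈ O := MulAction.mem_orbit_self x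
  have hle : H ≤ MulAction.stabilizer (Perm α) O := by
    intro h hh
    rw [MulAction.mem_stabilizer_iff]
    exact MulAction.smul_orbit (⟨h, hh⟩ : H) x
  have hdvd := Subgroup.index_dvd_of_le hle
  rw [index_stabilizer_set, hH] at hdvd
  have hle2 := Nat.le_of_dvd (by omega) hdvd
  have hk1 : 1 ≤ O.ncard := by
    rw [Nat.succ_le_iff, Set.ncard_pos]
    exact ⟨x, hxO⟩
  have hk2 : 1 ≤ Oᶜ.ncard := by
    rw [Nat.succ_le_iff, Set.ncard_pos]
    exact ⟨y, hy⟩
  have hsum : O.ncard + Oᶜ.ncard = Fintype.card α := by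
    rw [Set.ncard_add_ncard_compl, Nat.card_eq_fintype_card]
  have hk : O.ncard = 1 ∨ Oᶜ.ncard = 1 := by
    by_contra hcon
    push Not at hcon
    have := lt_choose (Fintype.card α) O.ncard (by omega) (by omega)
    omega
  rcases hk with hk | hk
  · obtain ⟨a, ha⟩ := Set.ncard_eq_one.mp hk
    refine ⟨a, eq_stabilizer_of_le H hH a ?_⟩
    rw [ha, MulAction.stabilizer_singleton] at hle
    exact hle
  · obtain ⟨a, ha⟩ := Set.ncard_eq_one.mp hk
    refine ⟨a, eq_stabilizer_of_le H hH a ?_⟩
    rw [← stabilizer_compl, ha, MulAction.stabilizer_singleton] at hle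
    exact hle

/-- the action on the cosets of a subgroup of index `n` as an isomorphism -/
noncomputable def cosetEquiv (h5 : 5 ≤ Fintype.card α) (H : Subgroup (Perm α))
    (hH : H.index = Fintype.card α) : Perm α ≃* Perm (Perm α ⧸ H) :=
  MulEquiv.ofBijective _ (cosetAction_bijective h5 H hH)

theorem cosetEquiv_apply (h5 : 5 ≤ Fintype.card α) (H : Subgroup (Perm α))
    (hH : H.index = Fintype.card α) (g : Perm α) (q : Perm α ⧸ H) :
    cosetEquiv h5 H hH g q = g • q := rfl

theorem mem_iff_cosetEquiv (h5 : 5 ≤ Fintype.card α) (H : Subgroup (Perm α))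
    (hH : H.index = Fintype.card α) (g : Perm α) :
    g ∈ H ↔ cosetEquiv h5 H hH g ((1 : Perm α) : Perm α ⧸ H) = ((1 : Perm α) : Perm α ⧸ H) := by
  rw [cosetEquiv_apply, ← MulAction.mem_stabilizer_iff, MulAction.stabilizer_quotient]

theorem isSwap_or_map (hcard : Fintype.card β = Fintype.card α) (e : Perm α ≃* Perm β)
    (g : Perm α) (hg : orderOf g = 2)
    (hc : Nat.card (Subgroup.centralizer {g}) = (Fintype.card α - 2).factorial * 2) :
    (e g).IsSwap ∨ (Fintype.card β = 6 ∧ (e g).cycleType = Multiset.replicate 3 2) := by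
  apply isSwap_or_of_card_centralizer
  · rw [MulEquiv.orderOf_eq, hg]
  · rw [card_centralizer_map, hc, hcard]

theorem no_fixed_of_triple (h6 : Fintype.card α = 6) (u : Perm α)
    (hu : u.cycleType = Multiset.replicate 3 2) (x : α) : u x ≠ x := by
  have hs := u.sum_cycleType
  rw [hu] at hs
  have : u.support = Finset.univ := Finset.eq_univ_of_card _ (by rw [← hs, h6]; rfl)
  have hx0 : x ∈ u.support := this ▸ Finset.mem_univ _
  exact Perm.mem_support.mp hx0

theorem eq_stabilizer_of_swap_mem (h5 : 5 ≤ Fintype.card α) (H : Subgroup (Perm α))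
    (hH : H.index = Fintype.card α) (t0 : Perm α) (ht0 : t0.IsSwap) (hmem : t0 ∈ H) :
    ∃ x : α, H = MulAction.stabilizer (Perm α) x := by
  classical
  have : Fintype (Perm α ⧸ H) := Fintype.ofFinite _
  have hX : Fintype.card (Perm α ⧸ H) = Fintype.card α := by
    rw [← Nat.card_eq_fintype_card, ← Subgroup.index_eq_card, hH]
  set e := cosetEquiv h5 H hH with he
  set x0 : Perm α ⧸ H := ((1 : Perm α) : Perm α ⧸ H) with hx0
  have h0 : (e t0).IsSwap := by
    rcases isSwap_or_map hX e t0 ht0.orderOf (card_centralizer_swap t0 ht0) with h | ⟨h6, h3⟩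
    · exact h
    · exact absurd ((mem_iff_cosetEquiv h5 H hH t0).mp hmem) (no_fixed_of_triple h6 _ h3 _)
  obtain ⟨-, hsymm⟩ := map_swaps e t0 ht0 h0
  apply eq_stabilizer_of_closure_swaps h5 H hH (e.symm '' {s | s.IsSwap ∧ s x0 = x0})
  · rintro _ ⟨s, ⟨hs, -⟩, rfl⟩
    exact hsymm s hs
  · have : H = (MulAction.stabilizer (Perm (Perm α ⧸ H)) x0).map e.symm.toMonoidHom := by
      ext g
      rw [mem_iff_cosetEquiv h5 H hH, Subgroup.mem_map]
      constructor
      · intro hg
        exact ⟨e g, hg, by simp⟩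
      · rintro ⟨s, hs, rfl⟩
        have h1 : e (e.symm s) = s := e.apply_symm_apply s
        have h2 : s x0 = x0 := hs
        change (e (e.symm s)) x0 = x0
        rw [h1, h2]
    refine this.trans ?_
    rw [stabilizer_eq_closure_swaps, MonoidHom.map_closure]
    rfl

theorem exists_conj_mem_of_fixed (h5 : 5 ≤ Fintype.card α) (H : Subgroup (Perm α))
    (hH : H.index = Fintype.card α) (g : Perm α) (q : Perm α ⧸ H)
    (hq : cosetEquiv h5 H hH g q = q) : ∃ c : Perm α, c * g * c⁻¹ ∈ H := by
  obtain ⟨c, rfl⟩ := QuotientGroup.mk_surjective q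
  rw [cosetEquiv_apply] at hq
  have h1 : ((g * c : Perm α) : Perm α ⧸ H) = (c : Perm α ⧸ H) := hq
  rw [eq_comm, QuotientGroup.eq] at h1
  exact ⟨c⁻¹, by simpa [mul_assoc] using h1⟩

theorem exists_swap (h2 : 2 ≤ Fintype.card α) : ∃ t : Perm α, t.IsSwap := by
  have hnt : Nontrivial α := Fintype.one_lt_card_iff_nontrivial.mp (by omega)
  obtain ⟨x, y, hxy⟩ := exists_pair_ne α
  exact ⟨swap x y, x, y, hxy, rfl⟩

theorem isSwap_fixed (h3 : 3 ≤ Fintype.card α) (t : Perm α) (ht : t.IsSwap) : ∃ q, t q = q := by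
  obtain ⟨a, b, -, rfl⟩ := ht
  obtain ⟨q, hq1, hq2⟩ := exists_ne_ne h3 a b
  exact ⟨q, swap_apply_of_ne_of_ne hq1 hq2⟩

theorem exists_swap_mem (h5 : 5 ≤ Fintype.card α) (h6 : Fintype.card α ≠ 6)
    (H : Subgroup (Perm α)) (hH : H.index = Fintype.card α) : ∃ t0 : Perm α, t0.IsSwap ∧ t0 ∈ H := by
  classical
  have : Fintype (Perm α ⧸ H) := Fintype.ofFinite _
  have hX : Fintype.card (Perm α ⧸ H) = Fintype.card α := by
    rw [← Nat.card_eq_fintype_card, ← Subgroup.index_eq_card, hH]
  obtain ⟨t, ht⟩ := exists_swap (α := α) (by omega)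
  rcases isSwap_or_map hX (cosetEquiv h5 H hH) t ht.orderOf (card_centralizer_swap t ht) with
    h | ⟨h6', -⟩
  · obtain ⟨q, hq⟩ := isSwap_fixed (by omega) _ h
    obtain ⟨c, hc⟩ := exists_conj_mem_of_fixed h5 H hH t q hq
    exact ⟨_, isSwap_conj ht c, hc⟩
  · omega

theorem eq_stabilizer_of_index (h5 : 5 ≤ Fintype.card α) (h6 : Fintype.card α ≠ 6)
    (H : Subgroup (Perm α)) (hH : H.index = Fintype.card α) :
    ∃ x : α, H = MulAction.stabilizer (Perm α) x := by
  obtain ⟨t0, ht0, hmem⟩ := exists_swap_mem h5 h6 H hH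
  exact eq_stabilizer_of_swap_mem h5 H hH t0 ht0 hmem

end perm

end Cfsg.Agent.Lib.Helper98
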