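import Cfsg.Agent.Lib.Helper98.IndexN

set_option autoImplicit false

namespace Cfsg.Agent.Lib.Helper98

open Equiv Equiv.Perm


section exotic

instance fact_prime_five_h98 : Fact (Nat.Prime 5) := ⟨by norm_num⟩

theorem card_perm_fin_five : Nat.card (Perm (Fin 5)) = 120 := by
  rw [Nat.card_perm, Nat.card_eq_fintype_card, Fintype.card_fin]; rfl

theorem card_sylow_subgroup_five (P : Sylow 5 (Perm (Fin 5))) : Nat.card P = 5 := by
  obtain ⟨n, hn⟩ := IsPGroup.iff_card.mp P.2
  have h1 : Nat.card P ∣ 120 := card_perm_fin_five ▸ Subgroup.card_subgroup_dvd_card (P : Subgroup (Perm (Fin 5)))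
  have h2 := P.not_dvd_index
  have h3 := (P : Subgroup (Perm (Fin 5))).card_mul_index
  rw [card_perm_fin_five] at h3
  rcases n with _ | _ | n
  · exfalso
    rw [hn] at h3
    apply h2
    simp at h3
    rw [h3]; norm_num
  · simpa using hn
  · exfalso
    rw [hn] at h1
    have : 25 ∣ 120 := Dvd.dvd.trans ⟨5 ^ n, by ring⟩ h1
    omega

theorem card_sylow_five : Nat.card (Sylow 5 (Perm (Fin 5))) = 6 := by
  let P : Sylow 5 (Perm (Fin 5)) := default
  have hP := card_sylow_subgroup_five P
  have h3 := (P : Subgroup (Perm (Fin 5))).card_mul_index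
  rw [card_perm_fin_five, hP] at h3
  have hidx : (P : Subgroup (Perm (Fin 5))).index = 24 := by omega
  have h4 := P.card_dvd_index
  rw [hidx] at h4
  have h5 := card_sylow_modEq_one 5 (Perm (Fin 5))
  have hle := Nat.le_of_dvd (by norm_num) h4
  have hne : Nat.card (Sylow 5 (Perm (Fin 5))) ≠ 1 := by
    intro h1
    have hss : Subsingleton (Sylow 5 (Perm (Fin 5))) := (Nat.card_eq_one_iff_unique.mp h1).1
    have hn : (P : Subgroup (Perm (Fin 5))).Normal := P.normal_of_subsingleton
    have hb := normal_eq_bot_of_not_alternating_le (α := Fin 5) (by simp) (P : Subgroup (Perm (Fin 5))) (by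
      intro hle
      have := Subgroup.index_dvd_of_le hle
      rw [alternatingGroup.index_eq_two, hidx] at this
      omega)
    rw [hb] at hP
    simp at hP
  unfold Nat.ModEq at h5
  generalize Nat.card (Sylow 5 (Perm (Fin 5))) = m at *
  interval_cases m <;> omega


theorem sylowAction_injective :
    Function.Injective (MulAction.toPermHom (Perm (Fin 5)) (Sylow 5 (Perm (Fin 5)))) := by
  rw [← MonoidHom.ker_eq_bot_iff]
  apply normal_eq_bot_of_not_alternating_le (α := Fin 5) (by simp)
  intro hle
  let P : Sylow 5 (Perm (Fin 5)) := default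
  have h1 : (MulAction.toPermHom (Perm (Fin 5)) (Sylow 5 (Perm (Fin 5)))).ker ≤
      MulAction.stabilizer (Perm (Fin 5)) P := by
    intro g hg
    rw [MonoidHom.mem_ker] at hg
    rw [MulAction.mem_stabilizer_iff]
    have := congrArg (fun p : Perm (Sylow 5 (Perm (Fin 5))) => p P) hg
    exact this
  have := Subgroup.index_dvd_of_le (hle.trans h1)
  rw [alternatingGroup.index_eq_two, MulAction.index_stabilizer_of_transitive, card_sylow_five] at this
  omega

theorem exists_exotic {α : Type*} [Fintype α] [DecidableEq α] (h6 : Fintype.card α = 6) :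
    ∃ H : Subgroup (Perm α), H.index = 6 ∧ ∀ x : α, ¬ H ≤ MulAction.stabilizer (Perm α) x := by
  classical
  have : Fintype (Sylow 5 (Perm (Fin 5))) := Fintype.ofFinite _
  have hc : Fintype.card (Sylow 5 (Perm (Fin 5))) = Fintype.card α := by
    rw [← Nat.card_eq_fintype_card, card_sylow_five, h6]
  let f : Sylow 5 (Perm (Fin 5)) ≃ α := Fintype.equivOfCardEq hc
  let ρ := MulAction.toPermHom (Perm (Fin 5)) (Sylow 5 (Perm (Fin 5)))
  refine ⟨ρ.range.map f.permCongrHom.toMonoidHom, ?_, ?_⟩
  · have h1 : (ρ.range.map f.permCongrHom.toMonoidHom).index = ρ.range.index :=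
      Subgroup.index_map_equiv _ f.permCongrHom
    rw [h1]
    have h2 := ρ.range.card_mul_index
    have h3 : Nat.card ρ.range = 120 := by
      rw [← card_perm_fin_five]
      exact Nat.card_congr (MonoidHom.ofInjective sylowAction_injective).symm.toEquiv
    rw [h3, Nat.card_perm, card_sylow_five] at h2
    have : Nat.factorial 6 = 720 := rfl
    omega
  · intro x hle
    obtain ⟨y, hy⟩ : ∃ y : Sylow 5 (Perm (Fin 5)), y ≠ f.symm x := by
      have : Nontrivial (Sylow 5 (Perm (Fin 5))) := Fintype.one_lt_card_iff_nontrivial.mp (by omega)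
      exact exists_ne _
    obtain ⟨g, hg⟩ := MulAction.exists_smul_eq (Perm (Fin 5)) (f.symm x) y
    have h1 : f.permCongrHom (ρ g) ∈ ρ.range.map f.permCongrHom.toMonoidHom :=
      Subgroup.mem_map_of_mem _ ⟨g, rfl⟩
    have h2 := hle h1
    rw [MulAction.mem_stabilizer_iff] at h2
    have h3 : f (g • f.symm x) = x := h2
    rw [hg] at h3
    apply hy
    rw [← h3, Equiv.symm_apply_apply]

end exotic



section six

variable {α : Type*} [Fintype α] [DecidableEq α]

theorem exists_triple (h6 : Fintype.card α = 6) :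
    ∃ u : Perm α, u.cycleType = Multiset.replicate 3 2 := by
  rw [exists_with_cycleType_iff]
  constructor
  · rw [h6]; decide
  · intro a ha
    rw [Multiset.eq_of_mem_replicate ha]

theorem orderOf_triple (u : Perm α) (hu : u.cycleType = Multiset.replicate 3 2) :
    orderOf u = 2 := by
  rw [← lcm_cycleType, hu]
  decide

/-- if `H` has index 6 and contains no swap then the coset action sends swaps to triples -/
theorem cosetEquiv_swap (h6 : Fintype.card α = 6) (H : Subgroup (Perm α))
    (hH : H.index = Fintype.card α) (hns : ∀ t : Perm α, t.IsSwap → t ∉ H)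
    [Fintype (Perm α ⧸ H)] [DecidableEq (Perm α ⧸ H)]
    (t : Perm α) (ht : t.IsSwap) :
    (cosetEquiv (by omega) H hH t).cycleType = Multiset.replicate 3 2 := by
  have hX : Fintype.card (Perm α ⧸ H) = Fintype.card α := by
    rw [← Nat.card_eq_fintype_card, ← Subgroup.index_eq_card, hH]
  rcases isSwap_or_map hX (cosetEquiv (by omega) H hH) t ht.orderOf (card_centralizer_swap t ht) with
    h | ⟨-, h⟩
  · exfalso
    obtain ⟨q, hq⟩ := isSwap_fixed (by omega) _ h
    obtain ⟨c, hc⟩ := exists_conj_mem_of_fixed (by omega) H hH t q hq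
    exact hns _ (isSwap_conj ht c) hc
  · exact h

theorem cosetEquiv_triple (h6 : Fintype.card α = 6) (H : Subgroup (Perm α))
    (hH : H.index = Fintype.card α) (hns : ∀ t : Perm α, t.IsSwap → t ∉ H)
    [Fintype (Perm α ⧸ H)] [DecidableEq (Perm α ⧸ H)]
    (u : Perm α) (hu : u.cycleType = Multiset.replicate 3 2) :
    (cosetEquiv (by omega) H hH u).IsSwap := by
  have hX : Fintype.card (Perm α ⧸ H) = Fintype.card α := by
    rw [← Nat.card_eq_fintype_card, ← Subgroup.index_eq_card, hH]
  rcases isSwap_or_map hX (cosetEquiv (by omega) H hH) u (orderOf_triple u hu)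
    (card_centralizer_triple h6 u hu) with h | ⟨-, h⟩
  · exact h
  · exfalso
    obtain ⟨t, ht⟩ := exists_swap (α := α) (by omega)
    have h1 := cosetEquiv_swap h6 H hH hns t ht
    have h2 : IsConj (cosetEquiv (by omega) H hH u) (cosetEquiv (by omega) H hH t) := by
      rw [isConj_iff_cycleType_eq, h, h1]
    have h2 := (cosetEquiv (by omega) H hH).symm.toMonoidHom.map_isConj h2
    simp only [MulEquiv.coe_toMonoidHom, MulEquiv.symm_apply_apply] at h2
    rw [isConj_iff_cycleType_eq, hu, isSwap_iff_cycleType.mp ht] at h2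
    revert h2
    decide

theorem exists_triple_mem (h6 : Fintype.card α = 6) (H : Subgroup (Perm α))
    (hH : H.index = Fintype.card α) (hns : ∀ t : Perm α, t.IsSwap → t ∉ H) :
    ∃ u : Perm α, u.cycleType = Multiset.replicate 3 2 ∧ u ∈ H := by
  classical
  have : Fintype (Perm α ⧸ H) := Fintype.ofFinite _
  have hX : Fintype.card (Perm α ⧸ H) = Fintype.card α := by
    rw [← Nat.card_eq_fintype_card, ← Subgroup.index_eq_card, hH]
  obtain ⟨u, hu⟩ := exists_triple h6
  obtain ⟨q, hq⟩ := isSwap_fixed (by omega) _ (cosetEquiv_triple h6 H hH hns u hu)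
  obtain ⟨c, hc⟩ := exists_conj_mem_of_fixed (by omega) H hH u q hq
  exact ⟨_, by rw [cycleType_conj, hu], hc⟩

theorem conj_of_no_swap (h6 : Fintype.card α = 6) (H₁ H₂ : Subgroup (Perm α))
    (hH₁ : H₁.index = Fintype.card α) (hns₁ : ∀ t : Perm α, t.IsSwap → t ∉ H₁)
    (hH₂ : H₂.index = Fintype.card α) (hns₂ : ∀ t : Perm α, t.IsSwap → t ∉ H₂) :
    ∃ c : Perm α, H₂.map (MulAut.conj c).toMonoidHom = H₁ := by
  classical
  have : Fintype (Perm α ⧸ H₂) := Fintype.ofFinite _
  have hX : Fintype.card (Perm α ⧸ H₂) = Fintype.card α := by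
    rw [← Nat.card_eq_fintype_card, ← Subgroup.index_eq_card, hH₂]
  set e := cosetEquiv (by omega) H₂ hH₂ with he
  obtain ⟨u, hu, hmem⟩ := exists_triple_mem h6 H₁ hH₁ hns₁
  have hsw := cosetEquiv_triple h6 H₂ hH₂ hns₂ u hu
  have hidx : (H₁.map e.toMonoidHom).index = Fintype.card (Perm α ⧸ H₂) := by
    rw [hX, ← hH₁]
    exact Subgroup.index_map_equiv _ e
  obtain ⟨y, hy⟩ := eq_stabilizer_of_swap_mem (by omega) (H₁.map e.toMonoidHom) hidx _ hsw
    (Subgroup.mem_map_of_mem _ hmem)
  obtain ⟨c, rfl⟩ := QuotientGroup.mk_surjective y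
  refine ⟨c, ?_⟩
  have h1 : H₁ = MulAction.stabilizer (Perm α) ((c : Perm α ⧸ H₂)) := by
    ext g
    rw [MulAction.mem_stabilizer_iff]
    constructor
    · intro hg
      have : e g ∈ H₁.map e.toMonoidHom := Subgroup.mem_map_of_mem _ hg
      rw [hy] at this
      exact this
    · intro hg
      have : e g ∈ MulAction.stabilizer (Perm (Perm α ⧸ H₂)) (c : Perm α ⧸ H₂) := hg
      rw [← hy] at this
      obtain ⟨g', hg', hgg⟩ := this
      have := e.injective hgg
      rwa [← this]
  have h2 : (c : Perm α ⧸ H₂) = c • ((1 : Perm α) : Perm α ⧸ H₂) := by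
    rw [MulAction.Quotient.smul_coe, smul_eq_mul, mul_one]
  rw [h1, h2, MulAction.stabilizer_smul_eq_stabilizer_map_conj, MulAction.stabilizer_quotient]

end six



section iso

variable {α : Type*} [Fintype α] [DecidableEq α]

omit [Fintype α] in
theorem range_ofSubtype_ne (a : α) :
    (ofSubtype : Perm {x // x ≠ a} →* Perm α).range = MulAction.stabilizer (Perm α) a := by
  ext g
  rw [MulAction.mem_stabilizer_iff]
  constructor
  · rintro ⟨σ, rfl⟩
    exact ofSubtype_apply_of_not_mem σ (by simp)
  · intro hg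
    have hg' : g a = a := hg
    have hmem : ∀ x, (g x ≠ a) ↔ (x ≠ a) := by
      intro x
      rw [not_iff_not]
      constructor
      · intro h
        apply g.injective
        rw [h, hg']
      · intro h
        rw [h, hg']
    exact ⟨g.subtypePerm (p := fun x => x ≠ a) hmem,
      ofSubtype_subtypePerm (p := fun x => x ≠ a) _ (fun x hx => by rintro rfl; exact hx hg')⟩

theorem nonempty_stabilizer_mulEquiv (a : α) (m : ℕ) (hm : Fintype.card α = m + 1) :
    Nonempty (MulAction.stabilizer (Perm α) a ≃* Perm (Fin m)) := by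
  have e1 : Perm {x // x ≠ a} ≃* (ofSubtype : Perm {x // x ≠ a} →* Perm α).range :=
    MonoidHom.ofInjective ofSubtype_injective
  have e2 := MulEquiv.subgroupCongr (range_ofSubtype_ne a)
  have hc : Fintype.card {x // x ≠ a} = Fintype.card (Fin m) := by
    rw [Fintype.card_subtype_compl, Fintype.card_fin, hm]
    simp
  exact ⟨(e1.trans e2).symm.trans (Fintype.equivOfCardEq hc).permCongrHom⟩

theorem nonempty_mulEquiv_of_index (h5 : 5 ≤ Fintype.card α) (H : Subgroup (Perm α))
    (hH : H.index = Fintype.card α) (m : ℕ) (hm : Fintype.card α = m + 1) :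
    Nonempty (H ≃* Perm (Fin m)) := by
  classical
  have : Fintype (Perm α ⧸ H) := Fintype.ofFinite _
  have hX : Fintype.card (Perm α ⧸ H) = Fintype.card α := by
    rw [← Nat.card_eq_fintype_card, ← Subgroup.index_eq_card, hH]
  set e := cosetEquiv h5 H hH with he
  set x0 : Perm α ⧸ H := ((1 : Perm α) : Perm α ⧸ H) with hx0
  have h1 : H.map e.toMonoidHom = MulAction.stabilizer (Perm (Perm α ⧸ H)) x0 := by
    ext s
    rw [Subgroup.mem_map]
    constructor
    · rintro ⟨g, hg, rfl⟩
      exact (mem_iff_cosetEquiv h5 H hH g).mp hg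
    · intro hs
      refine ⟨e.symm s, ?_, by simp⟩
      rw [mem_iff_cosetEquiv h5 H hH]
      have h1 : e (e.symm s) = s := e.apply_symm_apply s
      have h2 : s x0 = x0 := hs
      change (e (e.symm s)) x0 = x0
      rw [h1, h2]
  obtain ⟨e3⟩ := nonempty_stabilizer_mulEquiv x0 m (hX.trans hm)
  exact ⟨((e.subgroupMap H).trans (MulEquiv.subgroupCongr h1)).trans e3⟩

theorem stabilizer_injective (h3 : 3 ≤ Fintype.card α) :
    Function.Injective (fun a : α => MulAction.stabilizer (Perm α) a) := by
  intro a b hab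
  by_contra hne
  obtain ⟨w, hw1, hw2⟩ := exists_ne_ne h3 a b
  have h1 : swap b w ∈ MulAction.stabilizer (Perm α) a := by
    rw [MulAction.mem_stabilizer_iff]
    exact swap_apply_of_ne_of_ne hne hw1.symm
  have hab' : MulAction.stabilizer (Perm α) a = MulAction.stabilizer (Perm α) b := hab
  rw [hab', MulAction.mem_stabilizer_iff] at h1
  have h2 : swap b w b = b := h1
  rw [swap_apply_left] at h2
  exact hw2 h2

end iso


section count

variable {α : Type*} [Fintype α] [DecidableEq α]

theorem no_swap_of_exotic (h5 : 5 ≤ Fintype.card α) (H : Subgroup (Perm α))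
    (hH : H.index = Fintype.card α)
    (hex : ∀ x : α, ¬ H ≤ MulAction.stabilizer (Perm α) x) : ∀ t : Perm α, t.IsSwap → t ∉ H := by
  intro t ht hmem
  obtain ⟨x, hx⟩ := eq_stabilizer_of_swap_mem h5 H hH t ht hmem
  exact hex x hx.le

theorem stabilizer_coset {G : Type*} [Group G] (H : Subgroup G) (c : G) :
    MulAction.stabilizer G (c : G ⧸ H) = H.map (MulAut.conj c).toMonoidHom := by
  have h2 : (c : G ⧸ H) = c • ((1 : G) : G ⧸ H) := by
    rw [MulAction.Quotient.smul_coe, smul_eq_mul, mul_one]
  rw [h2, MulAction.stabilizer_smul_eq_stabilizer_map_conj, MulAction.stabilizer_quotient]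

theorem index_six_cases (h6 : Fintype.card α = 6) (H₂ : Subgroup (Perm α)) (hH₂ : H₂.index = 6)
    (hex : ∀ x : α, ¬ H₂ ≤ MulAction.stabilizer (Perm α) x)
    (H : Subgroup (Perm α)) (hH : H.index = 6) :
    (∃ x : α, H = MulAction.stabilizer (Perm α) x) ∨
      ∃ c : Perm α, H₂.map (MulAut.conj c).toMonoidHom = H := by
  by_cases hs : ∃ t : Perm α, t.IsSwap ∧ t ∈ H
  · obtain ⟨t, ht, hmem⟩ := hs
    exact Or.inl (eq_stabilizer_of_swap_mem (by omega) H (by omega) t ht hmem)
  · push Not at hs
    exact Or.inr (conj_of_no_swap h6 H H₂ (by omega) hs (by omega)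
      (no_swap_of_exotic (by omega) H₂ (by omega) hex))

omit [Fintype α] [DecidableEq α] in
theorem map_conj_stabilizer (c : Perm α) (x : α) :
    (MulAction.stabilizer (Perm α) x).map (MulAut.conj c).toMonoidHom =
      MulAction.stabilizer (Perm α) (c x) :=
  (MulAction.stabilizer_smul_eq_stabilizer_map_conj c x).symm

omit [Fintype α] [DecidableEq α] in
theorem not_conj_exotic (H₂ : Subgroup (Perm α))
    (hex : ∀ x : α, ¬ H₂ ≤ MulAction.stabilizer (Perm α) x) (c : Perm α) (x : α) :
    H₂.map (MulAut.conj c).toMonoidHom ≠ MulAction.stabilizer (Perm α) x := by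
  intro h
  apply hex (c⁻¹ x)
  intro g hg
  have h1 : MulAut.conj c g ∈ H₂.map (MulAut.conj c).toMonoidHom := Subgroup.mem_map_of_mem _ hg
  rw [h, MulAction.mem_stabilizer_iff] at h1
  have h2 : c (g (c⁻¹ x)) = x := h1
  rw [MulAction.mem_stabilizer_iff]
  change g (c⁻¹ x) = c⁻¹ x
  apply c.injective
  rw [h2]
  simp

theorem card_index_six (h6 : Fintype.card α = 6) :
    Nat.card {H : Subgroup (Perm α) // H.index = 6} = 12 := by
  classical
  obtain ⟨H₂, hH₂, hex⟩ := exists_exotic h6
  have : Fintype (Perm α ⧸ H₂) := Fintype.ofFinite _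
  have hX : Fintype.card (Perm α ⧸ H₂) = 6 := by
    rw [← Nat.card_eq_fintype_card, ← Subgroup.index_eq_card, hH₂]
  let F : α ⊕ (Perm α ⧸ H₂) → {H : Subgroup (Perm α) // H.index = 6} := fun s =>
    match s with
    | Sum.inl a => ⟨MulAction.stabilizer (Perm α) a, by
        rw [MulAction.index_stabilizer_of_transitive, Nat.card_eq_fintype_card, h6]⟩
    | Sum.inr q => ⟨MulAction.stabilizer (Perm α) q, by
        rw [MulAction.index_stabilizer_of_transitive, Nat.card_eq_fintype_card, hX]⟩
  have hF : Function.Bijective F := by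
    constructor
    · rintro (a | q) (b | r) hab
      · have : MulAction.stabilizer (Perm α) a = MulAction.stabilizer (Perm α) b :=
          congrArg Subtype.val hab
        rw [stabilizer_injective (by omega) this]
      · exfalso
        have : MulAction.stabilizer (Perm α) a = MulAction.stabilizer (Perm α) r :=
          congrArg Subtype.val hab
        obtain ⟨c, rfl⟩ := QuotientGroup.mk_surjective r
        rw [stabilizer_coset] at this
        exact not_conj_exotic H₂ hex c a this.symm
      · exfalso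
        have : MulAction.stabilizer (Perm α) q = MulAction.stabilizer (Perm α) b :=
          congrArg Subtype.val hab
        obtain ⟨c, rfl⟩ := QuotientGroup.mk_surjective q
        rw [stabilizer_coset] at this
        exact not_conj_exotic H₂ hex c b this
      · have h1 : MulAction.stabilizer (Perm α) q = MulAction.stabilizer (Perm α) r :=
          congrArg Subtype.val hab
        let e := cosetEquiv (by omega) H₂ (by omega)
        have h2 : ∀ y : Perm α ⧸ H₂, MulAction.stabilizer (Perm α) y =
            (MulAction.stabilizer (Perm (Perm α ⧸ H₂)) y).comap e.toMonoidHom := by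
          intro y
          ext g
          rfl
        rw [h2, h2] at h1
        have h3 := Subgroup.comap_injective (f := e.toMonoidHom) e.surjective h1
        rw [stabilizer_injective (by omega) h3]
    · rintro ⟨H, hH⟩
      rcases index_six_cases h6 H₂ hH₂ hex H hH with ⟨x, rfl⟩ | ⟨c, rfl⟩
      · exact ⟨Sum.inl x, rfl⟩
      · exact ⟨Sum.inr (c : Perm α ⧸ H₂), Subtype.ext (stabilizer_coset H₂ c)⟩
  rw [← Nat.card_congr (Equiv.ofBijective F hF), Nat.card_sum, Nat.card_eq_fintype_card,
    Nat.card_eq_fintype_card, h6, hX]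

end count


end Cfsg.Agent.Lib.Helper98
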