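import Cfsg.Agent.Lib.Helper20.RCDefs

set_option autoImplicit false

/-! Ladder RC (helper20, S4937), rung LIFT (helper98): Teichmueller lift of a homomorphism
modulo the local ideal. -/

namespace Cfsg.Agent.Lib.Helper98.RC

open Cfsg Cfsg.Agent.Lib.Helper81 Cfsg.Agent.Lib.Helper20.RC

variable {p : ℕ} {M : Ideal AlgInt}

theorem lift_memLocalRing_of_pow_eq_one (hM : IsPModular p M) {η : ℂ} {m : ℕ} (hm : 0 < m)
    (hη : η ^ m = 1) : MemLocalRing M η := by
  apply memLocalRing_of_isIntegral hM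
  refine ⟨Polynomial.X ^ m - 1, Polynomial.monic_X_pow_sub_C 1 hm.ne', ?_⟩
  simp [hη]

/-- congruence of powers. -/
theorem lift_pow_sub_one (hM : IsPModular p M) {η : ℂ} (hR : MemLocalRing M η)
    (h : MemLocalIdeal M (η - 1)) (i : ℕ) : MemLocalIdeal M (η ^ i - 1) := by
  induction i with
  | zero => simpa using memLocalIdeal_zero hM
  | succ i ih =>
    have e : η ^ (i + 1) - 1 = η * (η ^ i - 1) + (η - 1) := by ring
    rw [e]
    exact memLocalIdeal_add hM (memLocalIdeal_mul_left hM hR ih) h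

/-- a root of unity of order prime to `p` congruent to `1` is `1`. -/
theorem lift_eq_one (hM : IsPModular p M) {η : ℂ} {m : ℕ} (hm : 0 < m) (hpm : ¬ p ∣ m)
    (hη : η ^ m = 1) (h : MemLocalIdeal M (η - 1)) : η = 1 := by
  by_contra hne
  have hR := lift_memLocalRing_of_pow_eq_one hM hm hη
  have h1 : (∑ i ∈ Finset.range m, η ^ i) * (η - 1) = η ^ m - 1 := geom_sum_mul η m
  rw [hη, sub_self] at h1
  have h2 : ∑ i ∈ Finset.range m, η ^ i = 0 :=
    (mul_eq_zero.mp h1).resolve_right (sub_ne_zero.mpr hne)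
  have h3 : MemLocalIdeal M (∑ i ∈ Finset.range m, (η ^ i - 1)) :=
    memLocalIdeal_sum hM _ _ (fun i _ => lift_pow_sub_one hM hR h i)
  rw [Finset.sum_sub_distrib, h2, Finset.sum_const, Finset.card_range, nsmul_eq_mul, mul_one,
    zero_sub] at h3
  have h4 := memLocalIdeal_neg h3
  rw [neg_neg] at h4
  exact hpm ((memLocalIdeal_natCast_iff hM m).mp h4)

/-- `z ^ p ^ a ≡ 1` implies `z ≡ 1`. -/
theorem lift_sub_one_of_pow (hM : IsPModular p M) {z : ℂ} (hz : MemLocalRing M z) (a : ℕ)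
    (h : MemLocalIdeal M (z ^ p ^ a - 1)) : MemLocalIdeal M (z - 1) := by
  have hp : p.Prime := hM.1
  have ht : MemLocalRing M (z - 1) := memLocalRing_sub hM hz (memLocalRing_one hM)
  obtain ⟨r, hr⟩ := exists_add_pow_prime_pow_eq hp
    (⟨z - 1, ht⟩ : locRing hM) (1 : locRing hM) a
  have hr' := congrArg (fun x : locRing hM => (x : ℂ)) hr
  simp only [Subring.coe_add, Subring.coe_pow, Subring.coe_mul, Subring.coe_one,
    Subring.coe_natCast, sub_add_cancel, one_pow, mul_one] at hr'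
  have h5 : (z - 1) ^ p ^ a = (z ^ p ^ a - 1) - (p : ℂ) * ((z - 1) * (r : ℂ)) := by
    rw [hr']; ring
  have h6 : MemLocalIdeal M ((z - 1) ^ p ^ a) := by
    rw [h5]
    exact memLocalIdeal_sub hM h
      (memLocalIdeal_mul_right hM (memLocalIdeal_p hM) (memLocalRing_mul hM ht r.2))
  exact (memLocalIdeal_pow_iff hM ht (pow_pos hp.pos a).ne').mp h6

/-- existence of the root of unity. -/
theorem lift_exists_root (hM : IsPModular p M) {z : ℂ} (hz : MemLocalRing M z) {m : ℕ}
    (hm : 0 < m) (h : MemLocalIdeal M (z ^ m - 1)) :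
    ∃ ε : ℂ, ε ^ m = 1 ∧ MemLocalIdeal M (z - ε) := by
  haveI : NeZero m := ⟨hm.ne'⟩
  have hprim := Complex.isPrimitiveRoot_exp m hm.ne'
  have h1 := Polynomial.X_pow_sub_one_eq_prod hm hprim
  have h2 := congrArg (Polynomial.eval z) h1
  rw [Polynomial.eval_prod] at h2
  simp only [Polynomial.eval_sub, Polynomial.eval_pow, Polynomial.eval_X, Polynomial.eval_one,
    Polynomial.eval_C] at h2
  rw [h2] at h
  by_contra hc
  push Not at hc
  refine not_memLocalIdeal_prod hM _ _ ?_ ?_ h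
  · intro ε hε
    have hε' : ε ^ m = 1 := (Polynomial.mem_nthRootsFinset hm 1).mp hε
    exact memLocalRing_sub hM hz (lift_memLocalRing_of_pow_eq_one hM hm hε')
  · intro ε hε
    have hε' : ε ^ m = 1 := (Polynomial.mem_nthRootsFinset hm 1).mp hε
    exact hc ε hε'

theorem lift_hom {Q : Type*} [Group Q] [Finite Q] (hM : IsPModular p M) (μ : Q → ℂ)
    (hμ : ∀ q, MemLocalRing M (μ q))
    (hmul : ∀ a b, MemLocalIdeal M (μ a * μ b - μ (a * b))) (hone : MemLocalIdeal M (μ 1 - 1)) :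
    ∃ l : Q →* ℂˣ, ∀ q, MemLocalIdeal M ((l q : ℂ) * μ q - 1) := by
  have hp : p.Prime := hM.1
  -- `|Q| = p ^ a * m`
  obtain ⟨a, m, hpm, hcard⟩ := Nat.exists_eq_pow_mul_and_not_dvd (n := Nat.card Q)
    Nat.card_pos.ne' p hp.ne_one
  have hm : 0 < m := by
    rcases Nat.eq_zero_or_pos m with h0 | h0
    · exact absurd (h0 ▸ dvd_zero p) hpm
    · exact h0
  -- powers
  have hpow : ∀ (q : Q) (k : ℕ), MemLocalIdeal M (μ q ^ k - μ (q ^ k)) := by
    intro q k
    induction k with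
    | zero =>
      rw [pow_zero, pow_zero]
      have := memLocalIdeal_neg hone
      rwa [neg_sub] at this
    | succ k ih =>
      have e : μ q ^ (k + 1) - μ (q ^ (k + 1))
          = (μ q ^ k - μ (q ^ k)) * μ q + (μ (q ^ k) * μ q - μ (q ^ k * q)) := by
        rw [pow_succ q k]; ring
      rw [e]
      exact memLocalIdeal_add hM (memLocalIdeal_mul_right hM ih (hμ q)) (hmul _ _)
  have hm1 : ∀ q : Q, MemLocalIdeal M (μ q ^ m - 1) := by
    intro q
    apply lift_sub_one_of_pow hM (memLocalRing_pow hM (hμ q) m) a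
    have h1 := hpow q (Nat.card Q)
    rw [pow_card_eq_one'] at h1
    have h2 := memLocalIdeal_add hM h1 hone
    rw [sub_add_sub_cancel, hcard] at h2
    rw [← pow_mul, mul_comm m]
    exact h2
  choose ε hε1 hε2 using fun q => lift_exists_root hM (hμ q) hm (hm1 q)
  have hε0 : ∀ q, ε q ≠ 0 := by
    intro q h0
    have := hε1 q
    rw [h0, zero_pow hm.ne'] at this
    exact zero_ne_one this
  have hεR : ∀ q, MemLocalRing M (ε q) := fun q => lift_memLocalRing_of_pow_eq_one hM hm (hε1 q)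
  have hεiR : ∀ q, MemLocalRing M (ε q)⁻¹ := fun q =>
    lift_memLocalRing_of_pow_eq_one hM hm (by rw [inv_pow, hε1 q, inv_one])
  have hεmul : ∀ x y : Q, ε (x * y) = ε x * ε y := by
    intro x y
    have h1 : MemLocalIdeal M (ε (x * y) - ε x * ε y) := by
      have e : ε (x * y) - ε x * ε y = -(μ (x * y) - ε (x * y)) - (μ x * μ y - μ (x * y))
          + ((μ x - ε x) * μ y + ε x * (μ y - ε y)) := by ring
      rw [e]
      exact memLocalIdeal_add hM
        (memLocalIdeal_sub hM (memLocalIdeal_neg (hε2 _)) (hmul x y))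
        (memLocalIdeal_add hM (memLocalIdeal_mul_right hM (hε2 x) (hμ y))
          (memLocalIdeal_mul_left hM (hεR x) (hε2 y)))
    have h2 : ε (x * y) * ((ε x)⁻¹ * (ε y)⁻¹) = 1 := by
      apply lift_eq_one hM hm hpm
      · rw [mul_pow, mul_pow, inv_pow, inv_pow, hε1, hε1, hε1]; simp
      · have e : ε (x * y) * ((ε x)⁻¹ * (ε y)⁻¹) - 1
            = (ε (x * y) - ε x * ε y) * ((ε x)⁻¹ * (ε y)⁻¹) := by
          field_simp [hε0 x, hε0 y]
        rw [e]
        exact memLocalIdeal_mul_right hM h1 (memLocalRing_mul hM (hεiR x) (hεiR y))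
    field_simp [hε0 x, hε0 y] at h2
    exact h2
  refine ⟨MonoidHom.mk' (fun q => (Units.mk0 (ε q) (hε0 q))⁻¹) ?_, ?_⟩
  · intro x y
    apply Units.ext
    simp only [Units.val_mul, Units.val_inv_eq_inv_val, Units.val_mk0, hεmul, mul_inv]
  · intro q
    have e : (((MonoidHom.mk' (fun q => (Units.mk0 (ε q) (hε0 q))⁻¹) (by
        intro x y
        apply Units.ext
        simp only [Units.val_mul, Units.val_inv_eq_inv_val, Units.val_mk0, hεmul, mul_inv]) :
        Q →* ℂˣ) q : ℂˣ) : ℂ) * μ q - 1 = (ε q)⁻¹ * (μ q - ε q) := by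
      simp only [MonoidHom.mk'_apply, Units.val_inv_eq_inv_val, Units.val_mk0]
      field_simp [hε0 q]
    rw [e]
    exact memLocalIdeal_mul_left hM (hεiR q) (hε2 q)

end Cfsg.Agent.Lib.Helper98.RC
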